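import Cfsg.Agent.H168.P4.TwoE

/-!
# S5210 [P4-2S] (helper168)

`q = 2`: a saturated system over `PG K` is determined by the automizers of `S`, `V`, `Q`.
-/

set_option autoImplicit false

namespace Cfsg.Agent.H168.P4

open Cfsg Cfsg.FusionSystem Cfsg.Agent.H802
open Cfsg.Agent.H776.P4
open Cfsg.Agent.H756.PU (HypK Ess Inv Com NormAut TIAut AF)

universe u

section

variable {K : Type u} [Field K] [StarRing K] {p n : ℕ}

/-! ### coordinates -/

/-- an element of trace one -/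
theorem exists_tr_one (h : HypK K p n) (h2 : p ^ n = 2) : ∃ ω : K, ω + star ω = 1 := by
  classical
  have := h.fin
  have := Fintype.ofFinite K
  have hc : Fintype.card K = 4 := by
    rw [← Nat.card_eq_fintype_card, h.card, h2]
    norm_num
  obtain ⟨x, -, hx⟩ : ∃ x ∈ (Finset.univ : Finset K), x ∉ ({0, 1} : Finset K) := by
    apply Finset.exists_mem_notMem_of_card_lt_card
    rw [Finset.card_univ, hc]
    exact lt_of_le_of_lt (Finset.card_insert_le _ _) (by simp)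
  simp only [Finset.mem_insert, Finset.mem_singleton, not_or] at hx
  obtain ⟨hx0, hx1⟩ := hx
  have hz := two_zero h h2
  have hs : star x = x ^ 2 := by rw [h.star_eq, h2]
  have hx1' : x - 1 ≠ 0 := sub_ne_zero.2 hx1
  refine ⟨x, ?_⟩
  rw [hs]
  rcases four h h2 (α := 1) (β := x) one_ne_zero hx0 hx1 (x + x ^ 2) with h3 | h3 | h3 | h3
  · exfalso
    have h4 : x * (x - 1) = 0 := by linear_combination h3 - x * hz
    rcases mul_eq_zero.1 h4 with h5 | h5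
    · exact hx0 h5
    · exact hx1' h5
  · exact h3
  · exfalso
    have h4 : x * x = 0 := by linear_combination h3
    rcases mul_eq_zero.1 h4 with h5 | h5
    · exact hx0 h5
    · exact hx0 h5
  · exfalso
    have h4 : (x - 1) * (x - 1) = 0 := by linear_combination h3 + (1 - x) * hz
    rcases mul_eq_zero.1 h4 with h5 | h5
    · exact hx1' h5
    · exact hx1' h5

theorem neg_self' (h : HypK K p n) (h2 : p ^ n = 2) (x : K) : -x = x :=
  neg_eq_of_add_eq_zero_left (add_self' h h2 x)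

theorem conj_r (g v : PG K) : (g * v * g⁻¹).r = v.r := by simp

theorem conj_a (g v : PG K) (hv : v.r = 0) :
    (g * v * g⁻¹).a = v.a + g.r * star v.b + star g.r * v.b + g.r * star g.r * v.c := by
  simp only [PG.mul_a, PG.mul_r, PG.inv_a, PG.inv_b, PG.inv_c, hv, star_add, star_neg, star_mul', g.hc, star_zero]
  ring

theorem conj_b (g v : PG K) (hv : v.r = 0) : (g * v * g⁻¹).b = v.b + g.r * v.c := by
  simp only [PG.mul_b, PG.mul_r, PG.inv_b, PG.inv_c, hv]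
  ring

theorem conj_c (g v : PG K) : (g * v * g⁻¹).c = v.c := by simp

/-- the conjugation action of `g` on `V` depends only on `g.r` -/
theorem conj_congr {g g' v : PG K} (hv : v.r = 0) (hg : g.r = g'.r) : g * v * g⁻¹ = g' * v * g'⁻¹ := by
  ext
  · rw [conj_r, conj_r]
  · rw [conj_a g v hv, conj_a g' v hv, hg]
  · rw [conj_b g v hv, conj_b g' v hv, hg]
  · rw [conj_c, conj_c]

theorem conj_of_r_zero {g v : PG K} (hv : v.r = 0) (hg : g.r = 0) : g * v * g⁻¹ = v := by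
  have h3 := conj_congr (g := g) (g' := 1) hv hg
  rw [h3]
  group

theorem comm_of_r_zero {g v : PG K} (hv : v.r = 0) (hg : g.r = 0) : g * v = v * g := by
  have h3 := conj_of_r_zero hv hg
  calc g * v = (g * v * g⁻¹) * g := by group
    _ = v * g := by rw [h3]

/-- `C_S(V) = V` -/
theorem r_zero_of_comm {g : PG K} (hg : ∀ v : PG K, v.r = 0 → g * v = v * g) : g.r = 0 := by
  have h3 := hg ⟨0, 0, 0, 1, by simp, by simp⟩ rfl
  have h4 := congrArg PG.b h3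
  simp only [PG.mul_b] at h4
  simpa using h4

/-- commutators with `u ∉ V` take two different non-trivial values -/
theorem two_comms (h : HypK K p n) (h2 : p ^ n = 2) {g : PG K} (hg : g.r ≠ 0) :
    ∃ v w : PG K, v.r = 0 ∧ w.r = 0 ∧ g * v * g⁻¹ * v⁻¹ ≠ 1 ∧ g * w * g⁻¹ * w⁻¹ ≠ 1 ∧
      g * v * g⁻¹ * v⁻¹ ≠ g * w * g⁻¹ * w⁻¹ := by
  obtain ⟨ω, hω⟩ := exists_tr_one h h2
  have hg' : star g.r ≠ 0 := by simpa using hg
  set v : PG K := ⟨0, 0, star (g.r⁻¹ * ω), 0, by simp, by simp⟩ with hv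
  set w : PG K := ⟨0, 0, 0, 1, by simp, by simp⟩ with hw
  have hva : (g * v * g⁻¹).a = 1 := by
    rw [conj_a g v rfl]
    simp only [hv, star_star, star_mul', star_inv₀]
    rw [← hω]
    field_simp
    ring
  have hvb : (g * v * g⁻¹).b = v.b := by
    rw [conj_b g v rfl]
    simp [hv]
  have hwb : (g * w * g⁻¹).b = g.r := by
    rw [conj_b g w rfl]
    simp [hw]
  have hne : ∀ x y : PG K, x * y⁻¹ = 1 → x = y := fun x y => mul_inv_eq_one.1
  refine ⟨v, w, rfl, rfl, ?_, ?_, ?_⟩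
  · intro h3
    have h4 := congrArg PG.a (hne _ _ h3)
    rw [hva] at h4
    simp [hv] at h4
  · intro h3
    have h4 := congrArg PG.b (hne _ _ h3)
    rw [hwb] at h4
    exact hg h4
  · intro h3
    have h4 := congrArg PG.b h3
    rw [PG.mul_b (g * v * g⁻¹), PG.mul_b (g * w * g⁻¹), conj_r, conj_r, hvb, hwb] at h4
    simp only [PG.inv_b, PG.inv_c, hv, hw] at h4
    apply hg
    simpa using h4.symm

/-- an involution `g v`, `v ∈ V`, is conjugate to the involution `g` by an element of `V` -/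
theorem exists_conj (h : HypK K p n) (h2 : p ^ n = 2) {g v : PG K} (hg : g.r ≠ 0) (hv : v.r = 0) (hgg : g * g = 1)
    (hgv : (g * v) * (g * v) = 1) : ∃ w : PG K, w.r = 0 ∧ g * v = w * g * w⁻¹ := by
  have hz := two_zero h h2
  obtain ⟨ω, hω⟩ := exists_tr_one h h2
  have hg' : star g.r ≠ 0 := by simpa using hg
  have h1b := congrArg PG.b hgg
  have h1a := congrArg PG.a hgg
  have h2b := congrArg PG.b hgv
  have h2a := congrArg PG.a hgv
  simp only [PG.mul_a, PG.mul_b, PG.mul_r, PG.mul_c, PG.one_a, PG.one_b, hv, star_add, star_mul', add_zero, v.hc] at h1a h1b h2a h2b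
  have hc1 : g.c = 0 := by
    have h3 : g.r * g.c = 0 := by linear_combination h1b - g.b * hz
    exact (mul_eq_zero.1 h3).resolve_left hg
  have hc2 : v.c = 0 := by
    have h3 : g.r * v.c = 0 := by
      linear_combination h2b - (g.b + v.b + g.r * v.c) * hz - g.r * hc1
    exact (mul_eq_zero.1 h3).resolve_left hg
  have ht1 : g.r * star g.b + star g.r * g.b = 0 := by
    rw [hc1] at h1a
    linear_combination h1a - g.a * hz
  have ht2 : g.r * star v.b + star g.r * v.b = 0 := by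
    rw [hc1, hc2] at h2a
    linear_combination h2a - ht1 - (g.a + v.a + g.r * star v.b + star g.r * v.b) * hz
  obtain ⟨c, hsc, hcb⟩ : ∃ c : K, star c = c ∧ g.r * c = v.b := by
    refine ⟨g.r⁻¹ * v.b, ?_, by field_simp⟩
    rw [star_mul', star_inv₀]
    field_simp
    linear_combination ht2 - star g.r * v.b * hz
  have hst : star (v.a + g.r * star g.r * c) = v.a + g.r * star g.r * c := by
    rw [star_add, v.ha, star_mul', star_mul', star_star, hsc]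
    ring
  obtain ⟨b, hsb⟩ : ∃ b : K, g.r * star b + star g.r * b = v.a + g.r * star g.r * c := by
    refine ⟨star (g.r⁻¹ * ω * (v.a + g.r * star g.r * c)), ?_⟩
    rw [star_star, star_mul', star_mul', star_inv₀, hst]
    field_simp
    linear_combination (v.a + g.r * star g.r * c) * hω
  set w : PG K := ⟨0, 0, b, c, by simp, hsc⟩ with hw
  refine ⟨w, rfl, ?_⟩
  ext
  · simp [hv, hw]
  · simp only [PG.mul_a, PG.mul_r, PG.inv_a, PG.inv_b, PG.inv_c, hw, star_add, star_neg,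
      star_mul', star_zero, hc1, hc2, hsc]
    linear_combination ht2 + hsb + (v.a + g.r * star g.r * c) * hz
  · simp only [PG.mul_b, PG.mul_r, PG.inv_b, PG.inv_c, hw, hc1, hc2]
    linear_combination hcb + v.b * hz
  · simp [hw, hc1, hc2]

/-! ### automorphisms of `E_α` -/

/-- `V` is characteristic in `E_α` -/
theorem char_V (h : HypK K p n) (h2 : p ^ n = 2) {α : K} (γ : MulAut (EA α)) (g : EA α)
    (hg : (g : PG K).r = 0) : ((γ g : EA α) : PG K).r = 0 := by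
  have hT : ∀ x y : EA α, g * x * g⁻¹ * x⁻¹ ≠ 1 → g * y * g⁻¹ * y⁻¹ ≠ 1 → g * x * g⁻¹ * x⁻¹ = g * y * g⁻¹ * y⁻¹ := by
    have hx : ∀ x : EA α, g * x * g⁻¹ * x⁻¹ ≠ 1 → (x : PG K).r = α := by
      intro x hx
      rcases (mem_EA h h2).1 x.2 with h3 | h3
      · exfalso
        apply hx
        apply Subtype.ext
        change (g : PG K) * x * (g : PG K)⁻¹ * (x : PG K)⁻¹ = 1
        rw [comm_of_r_zero hg h3 |>.symm]
        group
      · exact h3
    intro x y hx1 hy1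
    apply Subtype.ext
    change (g : PG K) * x * (g : PG K)⁻¹ * (x : PG K)⁻¹ = (g : PG K) * y * (g : PG K)⁻¹ * (y : PG K)⁻¹
    have hgi : ((g : PG K)⁻¹).r = 0 := by simp [hg]
    have h3 := conj_congr (g := (x : PG K)) (g' := (y : PG K)) hgi ((hx x hx1).trans (hx y hy1).symm)
    calc (g : PG K) * x * (g : PG K)⁻¹ * (x : PG K)⁻¹ = g * (x * (g : PG K)⁻¹ * (x : PG K)⁻¹) := by group
      _ = g * (y * (g : PG K)⁻¹ * (y : PG K)⁻¹) := by rw [h3]
      _ = _ := by group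
  by_contra hcon
  obtain ⟨v, w, hv, hw, h3, h4, h5⟩ := two_comms h h2 hcon
  have hv' : v ∈ EA α := le_EA α hv
  have hw' : w ∈ EA α := le_EA α hw
  have e : ∀ x : EA α, γ (g * γ⁻¹ x * g⁻¹ * (γ⁻¹ x)⁻¹) = γ g * x * (γ g)⁻¹ * x⁻¹ := by
    intro x
    have e1 : γ (γ⁻¹ x) = x := by
      change (γ * γ⁻¹) x = x
      rw [mul_inv_cancel]; rfl
    rw [map_mul, map_mul, map_mul, map_inv, map_inv, e1]
  have e' : ∀ x : EA α, γ g * x * (γ g)⁻¹ * x⁻¹ ≠ 1 → g * γ⁻¹ x * g⁻¹ * (γ⁻¹ x)⁻¹ ≠ 1 := by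
    intro x hx hx'
    apply hx
    rw [← e, hx', map_one]
  have h6 := hT (γ⁻¹ ⟨v, hv'⟩) (γ⁻¹ ⟨w, hw'⟩) (e' _ fun h7 => h3 (congrArg Subtype.val h7))
    (e' _ fun h7 => h4 (congrArg Subtype.val h7))
  have h7 := congrArg γ h6
  rw [e, e] at h7
  exact h5 (congrArg Subtype.val h7)

end

/-- the automizer of `E_α` is contained in the one of every system with the same automizer of `V` -/
theorem aut_EA_le {K : Type u} [Field K] [StarRing K] {p n : ℕ} [Fact p.Prime] (h : HypK K p n) (h2 : p ^ n = 2)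
    {F F' : FusionSystem (⊤ : Subgroup (PG K))} (hF' : F'.IsSaturated p)
    (hV : F.autGroup (PV K) ≤ F'.autGroup (PV K)) {α : K} (hα : α ≠ 0) :
    F.autGroup (EA α) ≤ F'.autGroup (EA α) := by
  have := finite_PG h
  have hpG := isPGroup_PG h h2
  intro γ hγ
  have hVE : PV K ≤ EA α := le_EA α
  have hγF := (mem_autGroup_iff F le_top γ).1 hγ
  set φ : PV K →* PG K := ((EA α).subtype.comp γ.toMonoidHom).comp (Subgroup.inclusion hVE) with hφ
  have hφa : ∀ (x : PG K) (hx : x ∈ PV K), φ ⟨x, hx⟩ = (γ ⟨x, hVE hx⟩ : EA α) := fun _ _ => rfl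
  have hφF : φ ∈ F.Hom (PV K) := restrict_mem hγF hVE
  have hφV : ∀ x : PV K, φ x ∈ PV K := fun x => char_V h h2 γ (Subgroup.inclusion hVE x) x.2
  have hφr : φ.range = PV K := range_eq_of_mapsTo hφF hφV
  obtain ⟨γ0, hγ0, hγ0e⟩ := exists_aut hφF hφr
  have hφF' : φ ∈ F'.Hom (PV K) := aut_restrict_mem le_top (hV hγ0) le_rfl (fun x hx => (hγ0e ⟨x, hx⟩).symm)
  have hrec : F'.IsReceptive (PV K) :=
    isReceptive_of_isFullyNormalized hpG hF' (fullyNormalized_of_normal F' (PV K))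
  obtain ⟨ψ, hψ, hψe⟩ := hrec.2 (PV K) φ hφF' hφr
  have hconj : ∀ (x : PG K) (hx : x ∈ EA α) (v : PG K) (hv : v ∈ PV K) (hxv : x * v * x⁻¹ ∈ PV K),
      φ ⟨x * v * x⁻¹, hxv⟩ = (γ ⟨x, hx⟩ : EA α) * φ ⟨v, hv⟩ * ((γ ⟨x, hx⟩ : EA α) : PG K)⁻¹ := by
    intro x hx v hv hxv
    rw [hφa, hφa]
    have e : (⟨x * v * x⁻¹, hVE hxv⟩ : EA α) = ⟨x, hx⟩ * ⟨v, hVE hv⟩ * ⟨x, hx⟩⁻¹ := rfl
    rw [e, map_mul, map_mul, map_inv]
    rfl
  have hext : EA α ≤ extender ⊤ (PV K) φ := by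
    intro x hx
    rw [mem_extender_iff]
    refine ⟨Subgroup.mem_top x, ?_, ((γ ⟨x, hx⟩ : EA α) : PG K), Subgroup.mem_top _, ?_⟩
    · rw [Subgroup.normalizer_eq_top]
      exact Subgroup.mem_top x
    · intro v hv
      exact hconj x hx v v.2 hv
  -- `ψ x ∈ γ x V`
  have key : ∀ (x : PG K) (hx : x ∈ EA α), (((γ ⟨x, hx⟩ : EA α) : PG K)⁻¹ * ψ ⟨x, hext hx⟩).r = 0 := by
    intro x hx
    apply r_zero_of_comm
    intro w hw
    obtain ⟨⟨v, hv⟩, rfl⟩ : ∃ v, φ v = w := by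
      have hw' : w ∈ PV K := hw
      rw [← hφr] at hw'
      exact hw'
    have hxv : x * v * x⁻¹ ∈ PV K := (normal_PV (K := K)).conj_mem v hv x
    have h3 := hconj x hx v hv hxv
    have h4 : φ ⟨x * v * x⁻¹, hxv⟩ = ψ ⟨x, hext hx⟩ * φ ⟨v, hv⟩ * (ψ ⟨x, hext hx⟩)⁻¹ := by
      rw [← hψe _ hxv (hext (hVE hxv)), ← hψe v hv (hext (hVE hv)), ← map_mul, ← map_inv, ← map_mul]
      rfl
    rw [h3] at h4
    have h5 : φ ⟨v, hv⟩ = (((γ ⟨x, hx⟩ : EA α) : PG K)⁻¹ * ψ ⟨x, hext hx⟩) * φ ⟨v, hv⟩ *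
        (((γ ⟨x, hx⟩ : EA α) : PG K)⁻¹ * ψ ⟨x, hext hx⟩)⁻¹ := by
      calc φ ⟨v, hv⟩ = ((γ ⟨x, hx⟩ : EA α) : PG K)⁻¹ * (((γ ⟨x, hx⟩ : EA α) : PG K) * φ ⟨v, hv⟩ *
            ((γ ⟨x, hx⟩ : EA α) : PG K)⁻¹) * ((γ ⟨x, hx⟩ : EA α) : PG K) := by group
        _ = _ := by rw [h4]; group
    calc _ = ((((γ ⟨x, hx⟩ : EA α) : PG K)⁻¹ * ψ ⟨x, hext hx⟩) * φ ⟨v, hv⟩ *
        (((γ ⟨x, hx⟩ : EA α) : PG K)⁻¹ * ψ ⟨x, hext hx⟩)⁻¹) *
          (((γ ⟨x, hx⟩ : EA α) : PG K)⁻¹ * ψ ⟨x, hext hx⟩) := by group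
      _ = _ := by rw [← h5]
  -- the involution `u`
  set u : PG K := ⟨α, 0, 0, 0, by simp, by simp⟩ with hu
  have huE : u ∈ EA α := (mem_EA h h2).2 (Or.inr rfl)
  have huu : u * u = 1 := by
    ext
    · simp [hu, add_self' h h2]
    · simp [hu, PG.mul_a]
    · simp [hu, PG.mul_b]
    · simp [hu]
  have huu' : (⟨u, huE⟩ : EA α) * ⟨u, huE⟩ = 1 := Subtype.ext huu
  have hγu : ((γ ⟨u, huE⟩ : EA α) : PG K) * (γ ⟨u, huE⟩ : EA α) = 1 := by
    have h3 := congrArg γ huu'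
    rw [map_mul, map_one] at h3
    exact congrArg Subtype.val h3
  have hψu : ψ ⟨u, hext huE⟩ * ψ ⟨u, hext huE⟩ = 1 := by
    rw [← map_mul, ← map_one ψ]
    congr 1
    exact Subtype.ext huu
  have hγur : ((γ ⟨u, huE⟩ : EA α) : PG K).r ≠ 0 := by
    intro h3
    have h4 := char_V h h2 γ⁻¹ (γ ⟨u, huE⟩) h3
    have e1 : γ⁻¹ (γ ⟨u, huE⟩) = ⟨u, huE⟩ := by
      change (γ⁻¹ * γ) _ = _
      rw [inv_mul_cancel]; rfl
    rw [e1] at h4
    exact hα h4
  have hsplit : ψ ⟨u, hext huE⟩ = ((γ ⟨u, huE⟩ : EA α) : PG K) *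
      (((γ ⟨u, huE⟩ : EA α) : PG K)⁻¹ * ψ ⟨u, hext huE⟩) := by group
  obtain ⟨w, hw, hwe⟩ := exists_conj h h2 hγur (key u huE) hγu (by rw [← hsplit]; exact hψu)
  rw [← hsplit] at hwe
  -- the map `x ↦ w⁻¹ ψ(x) w`
  obtain ⟨χ, hχ, hχe⟩ := exists_comp (restrict_mem hψ hext)
    (F'.conj_mem (P := ⊤) (g := w⁻¹) le_rfl (Subgroup.mem_top _)) (fun x => Subgroup.mem_top _)
  have hχe' : ∀ (x : PG K) (hx : x ∈ EA α), χ ⟨x, hx⟩ = w⁻¹ * ψ ⟨x, hext hx⟩ * w := by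
    intro x hx
    rw [hχe ⟨x, hx⟩]
    change w⁻¹ * ψ ⟨x, hext hx⟩ * w⁻¹⁻¹ = _
    rw [inv_inv]
  have hwi : (w⁻¹).r = 0 := by simp [hw]
  have hA : ∀ (x : PG K) (hx : x ∈ PV K), χ ⟨x, hVE hx⟩ = (γ ⟨x, hVE hx⟩ : EA α) := by
    intro x hx
    rw [hχe', hψe x hx (hext (hVE hx)), hφa]
    have h3 := conj_of_r_zero (g := w⁻¹) (hφV ⟨x, hx⟩) hwi
    rw [inv_inv] at h3
    exact h3
  have hB : χ ⟨u, huE⟩ = (γ ⟨u, huE⟩ : EA α) := by
    rw [hχe', hwe]
    group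
  rw [mem_autGroup_iff F' le_top]
  refine mem_of_apply_eq hχ ?_
  rintro ⟨x, hx⟩
  change ((γ ⟨x, hx⟩ : EA α) : PG K) = χ ⟨x, hx⟩
  rcases (mem_EA h h2).1 hx with h3 | h3
  · exact (hA x h3).symm
  · have hy : x * u⁻¹ ∈ PV K := by
      rw [mem_PV]
      simp [h3, hu]
    have e : (⟨x, hx⟩ : EA α) = ⟨x * u⁻¹, hVE hy⟩ * ⟨u, huE⟩ := by
      apply Subtype.ext
      change x = x * u⁻¹ * u
      group
    rw [e, map_mul, map_mul, hA _ hy, hB]
    rfl

/-- (2S) -/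
theorem stTwoS (hE : StTwoE.{u}) : StTwoS.{u} := by
  intro K _ _ p n _ h h2 F F' hF hF' h1 hV hQ P
  have := finite_PG h
  have hpG := isPGroup_PG h h2
  apply Set.Subset.antisymm
  · refine le_of_essential hpG hF F' h1.le ?_ P
    intro E hE1 _
    rcases hE h h2 F hF E hE1 with rfl | rfl | ⟨α, hα, rfl⟩
    · exact hV.le
    · exact hQ.le
    · exact aut_EA_le h h2 hF' hV.le hα
  · refine le_of_essential hpG hF' F h1.ge ?_ P
    intro E hE1 _
    rcases hE h h2 F' hF' E hE1 with rfl | rfl | ⟨α, hα, rfl⟩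
    · exact hV.ge
    · exact hQ.ge
    · exact aut_EA_le h h2 hF hV.ge hα

end Cfsg.Agent.H168.P4
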